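import Cfsg.Agent.Lib.Helper6.SympTrans
import Cfsg.Agent.Lib.Helper6.SympMore
import Cfsg.Agent.S0765

set_option autoImplicit false

namespace Cfsg.Agent.Lib.Helper12

open Matrix Cfsg Cfsg.Agent.Lib.Helper6

variable {F : Type*} [Field F] (m : ℕ)

/-- the symplectic transvection as an element of the symplectic group -/
def spT (v : Fin m ⊕ Fin m → F) (c : F) : symplecticGroup (Fin m) F :=
  ⟨sympTransvection m v c, sympTransvection_mem v c⟩

variable {m}

theorem sp_ext {A B : symplecticGroup (Fin m) F}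
    (h : ∀ x, (A : Matrix (Fin m ⊕ Fin m) (Fin m ⊕ Fin m) F) *ᵥ x =
      (B : Matrix (Fin m ⊕ Fin m) (Fin m ⊕ Fin m) F) *ᵥ x) : A = B :=
  Subtype.ext (Matrix.ext_iff_mulVec.mpr h)

theorem spT_mulVec (v : Fin m ⊕ Fin m → F) (c : F) (x : Fin m ⊕ Fin m → F) :
    (spT m v c : Matrix (Fin m ⊕ Fin m) (Fin m ⊕ Fin m) F) *ᵥ x
      = x + (c * sympForm m F x v) • v :=
  sympTransvection_mulVec v c x

theorem sp_mul_mulVec (A B : symplecticGroup (Fin m) F) (x : Fin m ⊕ Fin m → F) :
    ((A * B : symplecticGroup (Fin m) F) : Matrix (Fin m ⊕ Fin m) (Fin m ⊕ Fin m) F) *ᵥ x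
      = (A : Matrix (Fin m ⊕ Fin m) (Fin m ⊕ Fin m) F) *ᵥ
        ((B : Matrix (Fin m ⊕ Fin m) (Fin m ⊕ Fin m) F) *ᵥ x) := by
  rw [Submonoid.coe_mul, ← mulVec_mulVec]

theorem conj_spT (A : symplecticGroup (Fin m) F) (v : Fin m ⊕ Fin m → F) (c : F) :
    A * spT m v c * A⁻¹ =
      spT m ((A : Matrix (Fin m ⊕ Fin m) (Fin m ⊕ Fin m) F) *ᵥ v) c := by
  rw [mul_inv_eq_iff_eq_mul]
  apply sp_ext
  intro x
  rw [sp_mul_mulVec, sp_mul_mulVec, spT_mulVec, spT_mulVec, sympForm_mulVec, mulVec_add,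
    mulVec_smul]

theorem spT_add (v : Fin m ⊕ Fin m → F) (c d : F) :
    spT m v (c + d) = spT m v c * spT m v d :=
  Subtype.ext (sympTransvection_mul v c d).symm

theorem spT_zero (v : Fin m ⊕ Fin m → F) : spT m v (0 : F) = 1 := by
  apply sp_ext
  intro x
  rw [spT_mulVec]
  simp

theorem spT_zero_vec (c : F) : spT m (0 : Fin m ⊕ Fin m → F) c = 1 := by
  apply sp_ext
  intro x
  rw [spT_mulVec]
  simp

theorem spT_smul (a : F) (v : Fin m ⊕ Fin m → F) (c : F) :
    spT m (a • v) c = spT m v (a ^ 2 * c) := by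
  apply sp_ext
  intro x
  rw [spT_mulVec, spT_mulVec, sympForm_smul_right, smul_smul]
  congr 2
  ring

theorem rel2 (u v : Fin m ⊕ Fin m → F) (huv : sympForm m F u v = 0) (c : F) :
    spT m (u + v) c * spT m (u - v) c = spT m u (2 * c) * spT m v (2 * c) := by
  have hvu : sympForm m F v u = 0 := by rw [sympForm_swap, huv, neg_zero]
  apply sp_ext
  intro x
  simp only [sp_mul_mulVec, spT_mulVec, sympForm_add_left, sympForm_add_right, sympForm_sub_right,
    sympForm_sub_left, sympForm_smul_left, sympForm_self, huv, hvu]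
  generalize sympForm m F x u = α
  generalize sympForm m F x v = β
  module

theorem rel3 (u v w : Fin m ⊕ Fin m → F) (huv : sympForm m F u v = 0)
    (huw : sympForm m F u w = 0) (hvw : sympForm m F v w = 0) (c : F) :
    spT m (u + v + w) c * spT m u c * spT m v c * spT m w c =
      spT m (u + v) c * spT m (u + w) c * spT m (v + w) c := by
  have hvu : sympForm m F v u = 0 := by rw [sympForm_swap, huv, neg_zero]
  have hwu : sympForm m F w u = 0 := by rw [sympForm_swap, huw, neg_zero]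
  have hwv : sympForm m F w v = 0 := by rw [sympForm_swap, hvw, neg_zero]
  apply sp_ext
  intro x
  simp only [sp_mul_mulVec, spT_mulVec, sympForm_add_left, sympForm_add_right,
    sympForm_smul_left, sympForm_self, huv, hvu, huw, hwu, hvw, hwv]
  generalize sympForm m F x u = α
  generalize sympForm m F x v = β
  generalize sympForm m F x w = γ
  module

/-- In any homomorphism to a commutative group all transvections with the same parameter
have the same image. -/
theorem hom_spT_eq {A : Type*} [CommGroup A] (φ : symplecticGroup (Fin m) F →* A)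
    (v w : Fin m ⊕ Fin m → F) (hv : v ≠ 0) (hw : w ≠ 0) (c : F) :
    φ (spT m v c) = φ (spT m w c) := by
  obtain ⟨v', hv'⟩ := exists_sympForm_eq_one m v hv
  obtain ⟨w', hw'⟩ := exists_sympForm_eq_one m w hw
  obtain ⟨g, -, hg⟩ := sympTv_trans_vec m ⊤ v v' w w' trivial trivial trivial
    trivial (by rw [hv']; exact one_ne_zero) (by rw [hw']; exact one_ne_zero)
  rw [← hg, ← conj_spT, map_mul, map_mul, map_inv, mul_comm, inv_mul_cancel_left]

theorem commutator_eq_top_of (h : ∀ (v : Fin m ⊕ Fin m → F) (c : F), v ≠ 0 →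
    (Abelianization.of (spT m v c) : Abelianization (symplecticGroup (Fin m) F)) = 1) :
    commutator (symplecticGroup (Fin m) F) = ⊤ := by
  rw [eq_top_iff, ← Cfsg.Agent.S0765.result m, Subgroup.closure_le]
  rintro A ⟨w, c, hA⟩
  have hA' : A = spT m w c := Subtype.ext hA
  rw [hA', SetLike.mem_coe]
  by_cases hw : w = 0
  · rw [hw, spT_zero_vec]; exact one_mem _
  · exact (QuotientGroup.eq_one_iff _).mp (h w c hw)

theorem sp_perfect_of_sq (h : ∃ a : F, a ≠ 0 ∧ a ^ 2 ≠ 1) :
    commutator (symplecticGroup (Fin m) F) = ⊤ := by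
  obtain ⟨a, ha, ha2⟩ := h
  apply commutator_eq_top_of
  intro v d hv
  have hsub : a ^ 2 - 1 ≠ 0 := sub_ne_zero.mpr ha2
  set c := d / (a ^ 2 - 1) with hc
  have hd : d = a ^ 2 * c + (-c) := by rw [hc]; field_simp; ring
  have hav : a • v ≠ 0 := smul_ne_zero ha hv
  rw [hd, spT_add, map_mul, ← spT_smul, hom_spT_eq _ (a • v) v hav hv, ← map_mul, ← spT_add,
    add_neg_cancel, spT_zero, map_one]

theorem single_ne_zero' (i : Fin m) : (Pi.single (Sum.inl i) 1 : Fin m ⊕ Fin m → F) ≠ 0 :=
  Pi.single_ne_zero_iff.mpr one_ne_zero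

theorem form_single_single (i j : Fin m) :
    sympForm m F (Pi.single (Sum.inl i) 1) (Pi.single (Sum.inl j) 1) = 0 := by
  rw [sympForm_single_inl]
  simp

theorem sp_perfect_of_two_ne (hm : 2 ≤ m) (h2 : (2 : F) ≠ 0) :
    commutator (symplecticGroup (Fin m) F) = ⊤ := by
  apply commutator_eq_top_of
  intro z d hz
  let i0 : Fin m := ⟨0, by omega⟩
  let i1 : Fin m := ⟨1, by omega⟩
  have h01 : i0 ≠ i1 := by simp [i0, i1, Fin.ext_iff]
  set u : Fin m ⊕ Fin m → F := Pi.single (Sum.inl i0) 1 with hu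
  set v : Fin m ⊕ Fin m → F := Pi.single (Sum.inl i1) 1 with hv
  have hu0 : u ≠ 0 := single_ne_zero' i0
  have hv0 : v ≠ 0 := single_ne_zero' i1
  have huv0 : u + v ≠ 0 := by
    intro h
    have := congrFun h (Sum.inl i0)
    simp [hu, hv, h01] at this
  have huv1 : u - v ≠ 0 := by
    intro h
    have := congrFun h (Sum.inl i0)
    simp [hu, hv, h01] at this
  set φ : symplecticGroup (Fin m) F →* Abelianization (symplecticGroup (Fin m) F) :=
    Abelianization.of with hφ
  have hrel := congrArg φ (rel2 u v (form_single_single i0 i1) (d / 2))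
  have e2 : 2 * (d / 2) = d / 2 + d / 2 := by ring
  rw [map_mul, map_mul, e2, spT_add, spT_add, map_mul, map_mul,
    hom_spT_eq φ (u + v) z huv0 hz, hom_spT_eq φ (u - v) z huv1 hz, hom_spT_eq φ u z hu0 hz,
    hom_spT_eq φ v z hv0 hz] at hrel
  have hd : d = d / 2 + d / 2 := by field_simp; ring
  rw [hd, spT_add, map_mul]
  -- t*t = t*t*(t*t) → t*t = 1
  exact (mul_eq_left.mp hrel.symm)

theorem sp_perfect_of_three_le (hm : 3 ≤ m) :
    commutator (symplecticGroup (Fin m) F) = ⊤ := by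
  apply commutator_eq_top_of
  intro z d hz
  let i0 : Fin m := ⟨0, by omega⟩
  let i1 : Fin m := ⟨1, by omega⟩
  let i2 : Fin m := ⟨2, by omega⟩
  have h01 : i0 ≠ i1 := by simp [i0, i1, Fin.ext_iff]
  have h02 : i0 ≠ i2 := by simp [i0, i2, Fin.ext_iff]
  have h12 : i1 ≠ i2 := by simp [i1, i2, Fin.ext_iff]
  set u : Fin m ⊕ Fin m → F := Pi.single (Sum.inl i0) 1 with hu
  set v : Fin m ⊕ Fin m → F := Pi.single (Sum.inl i1) 1 with hv
  set w : Fin m ⊕ Fin m → F := Pi.single (Sum.inl i2) 1 with hw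
  have hu0 : u ≠ 0 := single_ne_zero' i0
  have hv0 : v ≠ 0 := single_ne_zero' i1
  have hw0 : w ≠ 0 := single_ne_zero' i2
  have huv : u + v ≠ 0 := by
    intro h
    have := congrFun h (Sum.inl i0)
    simp [hu, hv, h01] at this
  have huw : u + w ≠ 0 := by
    intro h
    have := congrFun h (Sum.inl i0)
    simp [hu, hw, h02] at this
  have hvw : v + w ≠ 0 := by
    intro h
    have := congrFun h (Sum.inl i1)
    simp [hv, hw, h12] at this
  have huvw : u + v + w ≠ 0 := by
    intro h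
    have := congrFun h (Sum.inl i0)
    simp [hu, hv, hw, h01, h02] at this
  set φ : symplecticGroup (Fin m) F →* Abelianization (symplecticGroup (Fin m) F) :=
    Abelianization.of with hφ
  have hrel := congrArg φ (rel3 u v w (form_single_single i0 i1) (form_single_single i0 i2)
    (form_single_single i1 i2) d)
  rw [map_mul, map_mul, map_mul, map_mul, map_mul,
    hom_spT_eq φ (u + v + w) z huvw hz, hom_spT_eq φ (u + v) z huv hz,
    hom_spT_eq φ (u + w) z huw hz, hom_spT_eq φ (v + w) z hvw hz, hom_spT_eq φ u z hu0 hz,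
    hom_spT_eq φ v z hv0 hz, hom_spT_eq φ w z hw0 hz] at hrel
  exact mul_eq_left.mp hrel

end Cfsg.Agent.Lib.Helper12
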