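import Mathlib

set_option autoImplicit false

namespace Cfsg.Agent.Lib.Helper12

variable {F : Type*} [Field F] {V : Type*} [AddCommGroup V] [Module F V]

/-- Structure of a square-zero endomorphism. -/
theorem sqZero_structure (N : V →ₗ[F] V) (hN : ∀ x, N (N x) = 0) :
    ∃ (D : Submodule F V)
      (Φ : (LinearMap.range N × LinearMap.range N × D) ≃ₗ[F] V),
      ∀ a b d, N (Φ (a, b, d)) = Φ (0, a, 0) := by
  obtain ⟨σ, hσ⟩ := LinearMap.exists_rightInverse_of_surjective N.rangeRestrict
    (LinearMap.range_rangeRestrict N)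
  obtain ⟨r, hr⟩ := LinearMap.exists_leftInverse_of_injective (LinearMap.range N).subtype
    (Submodule.ker_subtype _)
  have hσ' : ∀ a : LinearMap.range N, N (σ a) = a := by
    intro a
    have := LinearMap.congr_fun hσ a
    exact congrArg Subtype.val this
  have hr' : ∀ a : LinearMap.range N, r a = a := by
    intro a
    exact LinearMap.congr_fun hr a
  have hNr : ∀ a : LinearMap.range N, N (a : V) = 0 := by
    rintro ⟨_, x, rfl⟩
    exact hN x
  let D : Submodule F V := LinearMap.ker N ⊓ LinearMap.ker r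
  let Φl : (LinearMap.range N × LinearMap.range N × D) →ₗ[F] V :=
    σ.coprod ((LinearMap.range N).subtype.coprod D.subtype)
  have hΦ : ∀ a b d, Φl (a, b, d) = σ a + ((b : V) + (d : V)) := by
    intro a b d
    simp [Φl]
  have hinj : Function.Injective Φl := by
    rw [← LinearMap.ker_eq_bot, LinearMap.ker_eq_bot']
    rintro ⟨a, b, d⟩ h
    rw [hΦ] at h
    have hd1 : N (d : V) = 0 := d.2.1
    have hd2 : r (d : V) = 0 := d.2.2
    have h1 := congrArg N h
    rw [map_add, map_add, hσ', hNr, hd1, map_zero, add_zero, add_zero] at h1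
    have ha : a = 0 := Subtype.ext h1
    subst ha
    rw [map_zero, zero_add] at h
    have h2 := congrArg r h
    rw [map_add, hr', hd2, map_zero, add_zero] at h2
    subst h2
    simp only [ZeroMemClass.coe_zero, zero_add] at h
    have hd : d = 0 := Subtype.ext h
    subst hd
    rfl
  have hsurj : Function.Surjective Φl := by
    intro x
    let a : LinearMap.range N := ⟨N x, LinearMap.mem_range_self N x⟩
    let y := x - σ a
    have hy : N y = 0 := by
      simp only [y, map_sub, hσ', a, sub_self]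
    let b := r y
    have hdm : y - (b : V) ∈ D := by
      refine Submodule.mem_inf.mpr ⟨?_, ?_⟩
      · rw [LinearMap.mem_ker, map_sub, hy, hNr, sub_zero]
      · rw [LinearMap.mem_ker, map_sub, hr', sub_self]
    refine ⟨(a, b, ⟨_, hdm⟩), ?_⟩
    rw [hΦ]
    simp only [y]
    abel
  have hbij : Function.Bijective Φl := ⟨hinj, hsurj⟩
  refine ⟨D, LinearEquiv.ofBijective Φl hbij, ?_⟩
  intro a b d
  rw [LinearEquiv.ofBijective_apply, LinearEquiv.ofBijective_apply, hΦ, hΦ]
  have hd1 : N (d : V) = 0 := d.2.1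
  rw [map_add, map_add, hσ', hNr, hd1]
  simp

/-- Two square-zero endomorphisms of the same rank are similar. -/
theorem sqZero_similar [FiniteDimensional F V] (N N' : V →ₗ[F] V) (hN : ∀ x, N (N x) = 0)
    (hN' : ∀ x, N' (N' x) = 0)
    (hr : Module.finrank F (LinearMap.range N) = Module.finrank F (LinearMap.range N')) :
    ∃ g : V ≃ₗ[F] V, ∀ x, g (N x) = N' (g x) := by
  obtain ⟨D, Φ, hΦ⟩ := sqZero_structure N hN
  obtain ⟨D', Φ', hΦ'⟩ := sqZero_structure N' hN'
  have h1 := Φ.finrank_eq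
  have h2 := Φ'.finrank_eq
  rw [Module.finrank_prod, Module.finrank_prod] at h1 h2
  have hD : Module.finrank F D = Module.finrank F D' := by omega
  let β := LinearEquiv.ofFinrankEq _ _ hr
  let δ := LinearEquiv.ofFinrankEq _ _ hD
  let g : V ≃ₗ[F] V := Φ.symm ≪≫ₗ (β.prodCongr (β.prodCongr δ)) ≪≫ₗ Φ'
  refine ⟨g, fun x => ?_⟩
  obtain ⟨⟨a, b, d⟩, rfl⟩ := Φ.surjective x
  rw [hΦ]
  simp only [g, LinearEquiv.trans_apply, LinearEquiv.symm_apply_apply, LinearEquiv.prodCongr_apply,
    hΦ', map_zero]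

/-- A square-zero nonzero endomorphism commutes with maps of any square determinant. -/
theorem sqZero_exists_commute_det {n : ℕ} (N : (Fin n → F) →ₗ[F] (Fin n → F))
    (hN : ∀ x, N (N x) = 0) (hN0 : N ≠ 0) (s : F) :
    ∃ h : (Fin n → F) →ₗ[F] (Fin n → F), LinearMap.det h = s * s ∧ ∀ x, h (N x) = N (h x) := by
  obtain ⟨c0, hc0⟩ : ∃ c0, N c0 ≠ 0 := by
    by_contra hcon
    push Not at hcon
    exact hN0 (LinearMap.ext hcon)
  obtain ⟨j, hj⟩ : ∃ j, N c0 j ≠ 0 := by
    by_contra hcon
    push Not at hcon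
    exact hc0 (funext hcon)
  let ψ2 : Module.Dual F (Fin n → F) := (N c0 j)⁻¹ • LinearMap.proj j
  have hψ2 : ψ2 (N c0) = 1 := by simp [ψ2, hj]
  let ψ1 : Module.Dual F (Fin n → F) := ψ2 ∘ₗ N
  have hψ1 : ψ1 c0 = 1 := hψ2
  have hψ1N : ∀ x, ψ1 (N x) = 0 := by
    intro x
    show ψ2 (N (N x)) = 0
    rw [hN, map_zero]
  let h1 : (Fin n → F) →ₗ[F] (Fin n → F) := LinearMap.transvection ψ1 ((s - 1) • c0)
  let h2 : (Fin n → F) →ₗ[F] (Fin n → F) := LinearMap.transvection ψ2 ((s - 1) • N c0)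
  refine ⟨h1 ∘ₗ h2, ?_, ?_⟩
  · rw [LinearMap.det_comp, LinearMap.transvection.det, LinearMap.transvection.det]
    simp [hψ1, hψ2]
  · intro x
    simp only [h1, h2, LinearMap.comp_apply, LinearMap.transvection.apply, map_add, map_smul, hN,
      hψ1N, smul_zero, add_zero, zero_smul, mul_zero, smul_eq_mul]
    rfl

end Cfsg.Agent.Lib.Helper12
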