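import Mathlib
import Cfsg.Agent.Lib.Helper6.SpDecomp
import Cfsg.Agent.Lib.Helper16.Transport

set_option autoImplicit false

namespace Cfsg.Agent.Lib.Helper12

open Matrix Cfsg Cfsg.Agent.Lib.Helper6

universe u v

/-- symplectic coordinates on an abstract non-degenerate alternating space. -/
theorem exists_symp_coords' {F : Type u} [Field F] {V : Type v} [AddCommGroup V] [Module F V]
    [FiniteDimensional F V] (B : LinearMap.BilinForm F V) (hA : B.IsAlt) (hN : B.Nondegenerate)
    {k : ℕ} (hd : Module.finrank F V = 2 * k) :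
    ∃ ψ : (Fin k ⊕ Fin k → F) ≃ₗ[F] V, ∀ x y, B (ψ x) (ψ y) = sympForm k F x y := by
  obtain ⟨m₁, k₁, b₁, ef₁, ee₁, ff₁, r₁⟩ := exists_symp_basis B hA
  have hk₁ : k₁ = 0 := by
    by_contra hne
    obtain ⟨j⟩ : Nonempty (Fin k₁) := ⟨⟨0, Nat.pos_of_ne_zero hne⟩⟩
    exact b₁.ne_zero (Sum.inr j) (hN.1 _ (r₁ j))
  subst hk₁
  have c₁ := Module.finrank_eq_card_basis b₁
  simp only [Fintype.card_sum, Fintype.card_fin] at c₁
  have hm : m₁ = k := by omega
  subst hm
  let e : (Fin m₁ ⊕ Fin m₁) ⊕ Fin 0 ≃ Fin m₁ ⊕ Fin m₁ :=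
    (Equiv.sumEmpty _ _).trans (Equiv.sumComm _ _)
  let b' := b₁.reindex e
  let ψ : (Fin m₁ ⊕ Fin m₁ → F) ≃ₗ[F] V := b'.equivFun.symm
  have hψ : ∀ i, ψ (Pi.single i 1) = b₁ (e.symm i) := by
    intro i
    show b'.equivFun.symm (Pi.single i 1) = _
    rw [Module.Basis.equivFun_symm_apply]
    simp [Pi.single_apply, b']
  have key : B.comp ψ.toLinearMap ψ.toLinearMap = sympB m₁ F := by
    apply LinearMap.BilinForm.ext_basis (Pi.basisFun F _)
    intro i j
    rw [LinearMap.BilinForm.comp_apply]
    simp only [LinearEquiv.coe_coe, Pi.basisFun_apply, hψ, sympB_apply]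
    rcases i with i | i
    · rcases j with j | j
      · rw [sympForm_single_inl]
        simpa [e] using ff₁ i j
      · rw [sympForm_single_inr]
        have h1 := ef₁ j i
        rw [← LinearMap.IsAlt.neg hA] at h1
        have h2 : B (b₁ (Sum.inl (Sum.inr i))) (b₁ (Sum.inl (Sum.inl j)))
            = - (if j = i then 1 else 0) := by rw [← h1, neg_neg]
        simp only [e, Equiv.symm_trans_apply, Equiv.sumComm_symm, Equiv.sumComm_apply,
          Sum.swap_inl, Sum.swap_inr, Equiv.sumEmpty_symm_apply]
        rw [h2]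
        simp [Pi.single_apply, eq_comm]
    · rcases j with j | j
      · rw [sympForm_single_inl]
        have h1 := ef₁ i j
        simp only [e, Equiv.symm_trans_apply, Equiv.sumComm_symm, Equiv.sumComm_apply,
          Sum.swap_inl, Sum.swap_inr, Equiv.sumEmpty_symm_apply]
        rw [h1]
        simp [Pi.single_apply, eq_comm]
      · rw [sympForm_single_inr]
        simpa [e] using ee₁ i j
  refine ⟨ψ, fun x y => ?_⟩
  have := congrArg (fun B => B x y) key
  exact this

/-- a faithful representation preserving a non-degenerate alternating form gives an embedding in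
the symplectic group. -/
theorem exists_hom_symp_of_rep {F : Type u} [Field F] {V : Type v} [AddCommGroup V] [Module F V]
    [FiniteDimensional F V] (B : LinearMap.BilinForm F V) (hA : B.IsAlt) (hN : B.Nondegenerate)
    {k : ℕ} (hd : Module.finrank F V = 2 * k) {G : Type*} [Group G] (ρ : G →* Module.End F V)
    (hρ : Function.Injective ρ) (hB : ∀ g x y, B (ρ g x) (ρ g y) = B x y) :
    ∃ f : G →* symplecticGroup (Fin k) F, Function.Injective f := by
  obtain ⟨ψ, hψ⟩ := exists_symp_coords' B hA hN hd
  let r : G →* Matrix (Fin k ⊕ Fin k) (Fin k ⊕ Fin k) F :=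
    { toFun := fun g => LinearMap.toMatrix' (ψ.symm.toLinearMap ∘ₗ ρ g ∘ₗ ψ.toLinearMap)
      map_one' := by
        rw [map_one, ← LinearMap.toMatrix'_id]
        congr 1
        ext x
        simp
      map_mul' := by
        intro a b
        rw [← LinearMap.toMatrix'_comp]
        congr 1
        apply LinearMap.ext
        intro x
        simp }
  have hr : ∀ g x, r g *ᵥ x = ψ.symm (ρ g (ψ x)) := by
    intro g x
    show LinearMap.toMatrix' _ *ᵥ x = _
    rw [LinearMap.toMatrix'_mulVec]
    rfl
  apply Cfsg.Agent.Lib.Helper16.exists_hom_symplectic r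
  · intro a b hab
    apply hρ
    apply LinearMap.ext
    intro v
    have h1 := congrArg (fun M => M *ᵥ ψ.symm v) hab
    simp only [hr, LinearEquiv.apply_symm_apply] at h1
    exact ψ.symm.injective h1
  · intro g
    rw [mem_symplecticGroup_iff_sympForm]
    intro x y
    rw [hr, hr, ← hψ, ← hψ, LinearEquiv.apply_symm_apply, LinearEquiv.apply_symm_apply, hB]

end Cfsg.Agent.Lib.Helper12
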