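import Mathlib

set_option autoImplicit false

namespace Cfsg.Agent.Lib.Helper12

open scoped commutatorElement

theorem mem_map_conj {G : Type*} [Group G] (B : Subgroup G) (g x : G) :
    x ∈ B.map (MulAut.conj g).toMonoidHom ↔ g⁻¹ * x * g ∈ B := by
  constructor
  · rintro ⟨b, hb, rfl⟩
    simpa [mul_assoc] using hb
  · intro h
    exact ⟨g⁻¹ * x * g, h, by simp [mul_assoc]⟩

theorem conj_mem_map_conj {G : Type*} [Group G] (B : Subgroup G) (g b : G) (hb : b ∈ B) :
    g * b * g⁻¹ ∈ B.map (MulAut.conj g).toMonoidHom :=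
  ⟨b, hb, by simp⟩

theorem map_conj_one {G : Type*} [Group G] (B : Subgroup G) :
    B.map (MulAut.conj (1 : G)).toMonoidHom = B := by
  ext x; simp

/-- Counting lemma: if `B` normalizes `A`, `A ∩ B = 1`, `|A| ≤ |B|` and every conjugate of `B` by an element
of `A` equals `B` or meets it trivially, then `A` and `B` commute. -/
theorem commutator_eq_bot_of_ti {G : Type*} [Group G] [Finite G] (A B : Subgroup G)
    (hBti : ∀ a ∈ A, B.map (MulAut.conj a).toMonoidHom = B ∨ B.map (MulAut.conj a).toMonoidHom ⊓ B = ⊥)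
    (hle : Nat.card ↥A ≤ Nat.card ↥B) (hAB : A ⊓ B = ⊥) (hN : B ≤ Subgroup.normalizer (A : Set G)) :
    ⁅A, B⁆ = ⊥ := by
  have hnorm : ∀ a ∈ A, B.map (MulAut.conj a).toMonoidHom = B := by
    intro a ha
    by_contra hne
    have h : B.map (MulAut.conj a).toMonoidHom ⊓ B = ⊥ := (hBti a ha).resolve_left hne
    have ha1 : a ≠ 1 := by
      rintro rfl
      exact hne (map_conj_one B)
    -- the map b ↦ b a b⁻¹ from B to A \ {1}
    let f : B → {x : A // x ≠ 1} := fun b =>
      ⟨⟨(b : G) * a * (b : G)⁻¹, (Subgroup.mem_normalizer_iff.mp (hN b.2) a).mp ha⟩, by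
        intro hcon
        apply ha1
        have : (b : G) * a * (b : G)⁻¹ = 1 := congrArg Subtype.val hcon
        have h2 : (b : G) * a = b := by
          have := congrArg (· * (b : G)) this
          simpa using this
        simpa using h2⟩
    have hf : Function.Injective f := by
      intro b b' hbb
      have h1 : (b : G) * a * (b : G)⁻¹ = (b' : G) * a * (b' : G)⁻¹ := by
        have := congrArg (fun x : {x : A // x ≠ 1} => ((x : A) : G)) hbb
        simpa [f] using this
      have hc : a * ((b' : G)⁻¹ * b) * a⁻¹ = (b' : G)⁻¹ * b := by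
        have h2 : (b' : G)⁻¹ * b * a = a * ((b' : G)⁻¹ * b) := by
          calc (b' : G)⁻¹ * b * a = (b' : G)⁻¹ * ((b : G) * a * (b : G)⁻¹) * b := by group
            _ = (b' : G)⁻¹ * ((b' : G) * a * (b' : G)⁻¹) * b := by rw [h1]
            _ = a * ((b' : G)⁻¹ * b) := by group
        rw [← h2]; group
      have hmemB : (b' : G)⁻¹ * b ∈ B := B.mul_mem (B.inv_mem b'.2) b.2
      have hmem : (b' : G)⁻¹ * b ∈ B.map (MulAut.conj a).toMonoidHom ⊓ B := by
        refine ⟨?_, hmemB⟩
        have := conj_mem_map_conj B a _ hmemB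
        rwa [hc] at this
      rw [h, Subgroup.mem_bot] at hmem
      have : (b : G) = b' := by
        have := congrArg ((b' : G) * ·) hmem
        simpa using this
      exact Subtype.ext this
    have hcard : Nat.card B ≤ Nat.card {x : A // x ≠ 1} := Nat.card_le_card_of_injective f hf
    have hcard2 : Nat.card {x : A // x ≠ 1} + 1 = Nat.card A := by
      classical
      have := Fintype.ofFinite A
      rw [Nat.card_eq_fintype_card, Nat.card_eq_fintype_card, Fintype.card_subtype_compl,
        Fintype.card_subtype_eq]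
      have : 0 < Fintype.card A := Fintype.card_pos
      omega
    omega
  rw [eq_bot_iff, ← hAB, Subgroup.commutator_le]
  intro a ha b hb
  refine ⟨?_, ?_⟩
  · have h1 : b * a⁻¹ * b⁻¹ ∈ A := (Subgroup.mem_normalizer_iff.mp (hN hb) a⁻¹).mp (A.inv_mem ha)
    have : ⁅a, b⁆ = a * (b * a⁻¹ * b⁻¹) := by rw [commutatorElement_def]; group
    rw [this]
    exact A.mul_mem ha h1
  · have h1 : a * b * a⁻¹ ∈ B := by
      have := conj_mem_map_conj B a b hb
      rwa [hnorm a ha] at this
    rw [commutatorElement_def]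
    exact B.mul_mem h1 (B.inv_mem hb)

end Cfsg.Agent.Lib.Helper12
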