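import Mathlib

set_option autoImplicit false

namespace Cfsg.Agent.Lib.Helper12

/-- A finite group in which every square is trivial has trivial Frattini subgroup. -/
theorem frattini_eq_bot_of_sq {R : Type*} [Group R] [Finite R] (h : ∀ r : R, r * r = 1) :
    frattini R = ⊥ := by
  classical
  have hinv : ∀ a : R, a⁻¹ = a := fun a => inv_eq_of_mul_eq_one_left (h a)
  have hcomm : ∀ a b : R, a * b = b * a := by
    intro a b
    have h1 := h (a * b)
    calc a * b = (a * b)⁻¹ := (hinv _).symm
      _ = b⁻¹ * a⁻¹ := mul_inv_rev a b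
      _ = b * a := by rw [hinv, hinv]
  rw [eq_bot_iff]
  intro x hx
  rw [Subgroup.mem_bot]
  by_contra hx1
  obtain ⟨K, hK⟩ := Set.Finite.exists_maximal (s := {K : Subgroup R | x ∉ K}) (Set.toFinite _)
    ⟨⊥, by simpa [Subgroup.mem_bot] using hx1⟩
  have hxK : x ∉ K := hK.prop
  have hco : IsCoatom K := by
    refine ⟨fun htop => hxK (htop ▸ Subgroup.mem_top x), ?_⟩
    intro L hKL
    have hxL : x ∈ L := by
      by_contra hxL
      exact absurd (hK.le_of_ge (show L ∈ {K : Subgroup R | x ∉ K} from hxL) hKL.le) (not_le_of_gt hKL)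
    rw [eq_top_iff]
    intro g _
    by_cases hgK : g ∈ K
    · exact hKL.le hgK
    · -- the subgroup K ∪ gK
      let K' : Subgroup R :=
        { carrier := {y | y ∈ K ∨ g * y ∈ K}
          mul_mem' := by
            rintro a b (ha | ha) (hb | hb)
            · exact Or.inl (K.mul_mem ha hb)
            · right
              have : g * (a * b) = a * (g * b) := by rw [← mul_assoc, hcomm g a, mul_assoc]
              rw [this]; exact K.mul_mem ha hb
            · right
              rw [← mul_assoc]; exact K.mul_mem ha hb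
            · left
              have : a * b = (g * a) * (g * b) := by
                calc a * b = (g * g) * (a * b) := by rw [h g, one_mul]
                  _ = g * (g * a) * b := by simp only [mul_assoc]
                  _ = g * (a * g) * b := by rw [hcomm g a]
                  _ = (g * a) * (g * b) := by simp only [mul_assoc]
              rw [this]; exact K.mul_mem ha hb
          one_mem' := Or.inl K.one_mem
          inv_mem' := by
            intro a ha
            rw [hinv a]; exact ha }
      have hKK' : K ≤ K' := fun y hy => Or.inl hy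
      have hgK' : g ∈ K' := Or.inr (by rw [h g]; exact K.one_mem)
      have hxK' : x ∈ K' := by
        by_contra hxK'
        have := hK.le_of_ge (show K' ∈ {K : Subgroup R | x ∉ K} from hxK') hKK'
        exact hgK (this hgK')
      rcases hxK' with h1 | h1
      · exact absurd h1 hxK
      · have : g = (g * x) * x := by rw [mul_assoc, h x, mul_one]
        rw [this]
        exact L.mul_mem (hKL.le h1) hxL
  exact hxK (frattini_le_coatom hco hx)

/-- In a finite `p`-group, a proper subgroup `R` of a subgroup `H` lies in a proper subgroup of `H`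
which is normalized by `H`. -/
theorem exists_normal_lt {S : Type*} [Group S] [Finite S] {p : ℕ} [Fact p.Prime] (hS : IsPGroup p S)
    (H R : Subgroup S) (hRH : R ≤ H) (hne : R ≠ H) :
    ∃ M : Subgroup S, M < H ∧ R ≤ M ∧ ∀ h ∈ H, ∀ m ∈ M, h * m * h⁻¹ ∈ M := by
  have hH2 : IsPGroup p H := hS.to_subgroup H
  have : Group.IsNilpotent H := hH2.isNilpotent
  have hR' : R.subgroupOf H ≠ ⊤ := by
    rw [Ne, Subgroup.subgroupOf_eq_top]
    intro hle
    exact hne (le_antisymm hRH hle)
  obtain ⟨M', hM', hRM'⟩ := (eq_top_or_exists_le_coatom (R.subgroupOf H)).resolve_left hR'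
  have hn : M'.Normal := Subgroup.NormalizerCondition.normal_of_coatom M'
    Group.normalizerCondition_of_isNilpotent hM'
  refine ⟨M'.map H.subtype, ?_, ?_, ?_⟩
  · refine lt_of_le_of_ne (Subgroup.map_subtype_le M') (fun heq => hM'.1 ?_)
    rw [eq_top_iff]
    intro y _
    have hy : (y : S) ∈ M'.map H.subtype := by rw [heq]; exact y.2
    obtain ⟨m, hm, hmy⟩ := hy
    have : m = y := Subtype.ext hmy
    exact this ▸ hm
  · intro x hx
    exact ⟨⟨x, hRH hx⟩, hRM' (Subgroup.mem_subgroupOf.mpr hx), rfl⟩
  · rintro h hh _ ⟨m, hm, rfl⟩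
    exact ⟨⟨h, hh⟩ * m * ⟨h, hh⟩⁻¹, hn.conj_mem m hm ⟨h, hh⟩, rfl⟩

end Cfsg.Agent.Lib.Helper12
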